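import Cfsg.Agent.OD.Pre
import Cfsg.Agent.H6.HNS.p19D
set_option autoImplicit false
set_option maxRecDepth 100000
set_option Elab.async false
set_option linter.all false
namespace CfH6.HNS
open CfH6
def p19L : List CL := [⟨0, 19, [0, 100, 1], nat_lit 0x110010000f000e000d000c000b000a00090008000700060005000400030002000100000000, 1⟩]
def p19T : List (ℕ × ℕ) := [(0, nat_lit 0x1211100f0e0d0c0b0a090807060504030201)]
def p19p0 : List (ℕ × ℕ) := [(2, 5), (3, 1), (2, 6), (0, 3), (4, 2), (3, 7), (0, 11), (5, 6), (2, 6), (2, 6), (6, 3), (1, 6), (4, 2), (1, 4), (3, 0), (0, 2)]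
theorem p19b0 : (HNM.ok p19X && Nat.beq (slp HNM.mm HNM.PM.one p19p0 ([] ++ HNM.ms) (HNM.PM.chkS HNM.mm p19X p19L p19T)) 0 &&
  Nat.beq (p19L.map CL.m).prod 19) = true := by decide +kernel
end CfH6.HNS
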