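import Cfsg.Agent.OD.Pre
import Cfsg.Agent.H6.HNS.p2D
set_option autoImplicit false
set_option maxRecDepth 100000
set_option Elab.async false
set_option linter.all false
namespace CfH6.HNS
open CfH6
def p2p0 : List (ℕ × ℕ) := [(2, 5), (3, 1), (2, 6), (0, 3), (4, 2), (3, 7), (0, 11), (5, 6), (2, 6), (2, 6), (6, 3), (1, 6), (5, 0), (5, 3), (2, 5), (2, 2), (1, 1), (0, 2), (0, 0), (0, 4), (0, 0), (0, 6), (11, 11), (0, 9), (2, 0), (29, 26), (27, 29), (30, 0), (34, 0), (3, 0), (36, 33), (0, 4), (2, 0), (34, 7), (5, 0), (0, 0), (3, 0), (15, 0), (0, 13), (0, 0), (0, 1), (0, 0), (0, 0), (19, 0), (17, 45), (0, 15), (0, 17), (20, 19), (0, 2), (27, 33), (3, 3), (29, 0), (0, 2), (0, 0), (0, 1), (0, 0), (0, 0), (41, 0), (43, 44), (0, 47), (38, 0), (28, 12), (16, 0), (41, 0), (0, 3), (0, 0), (0, 1), (0, 0), (0, 3), (9, 0)]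
theorem p2b0 : Nat.beq (slp HNM.mm HNM.PM.one p2p0 ([] ++ HNM.ms) (outs HNM.PM.one [(26, p2o0), (12, p2o1), (0, p2o2)])) 0 = true := by decide +kernel
end CfH6.HNS
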