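import Cfsg.Agent.OD.Pre
import Cfsg.Agent.H6.HNS.p2D
set_option autoImplicit false
set_option maxRecDepth 100000
set_option Elab.async false
set_option linter.all false
namespace CfH6.HNS
open CfH6
def p2L : List CL := [⟨0, 2, [1], nat_lit 0x0, 1⟩,
  ⟨2, 4, [1], nat_lit 0x401020002000000000000, 2⟩,
  ⟨6, 2, [1], nat_lit 0x60000000000000000000000000000, 1⟩,
  ⟨8, 2, [1], nat_lit 0x8000000000000000000000000000000000000, 1⟩,
  ⟨10, 2, [0], nat_lit 0xa00000000000000000000000000000000000000000000, 1⟩,
  ⟨12, 2, [0], nat_lit 0xc0000000000000000000000000000000000000000000000000000, 1⟩,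
  ⟨14, 2, [1], nat_lit 0xe000000000000000000000000000000000000000000000000000000000000, 1⟩,
  ⟨16, 2, [2], nat_lit 0x1000000000000000000000000000000000000000000000000000000000000000000000, 1⟩,
  ⟨18, 2, [0], nat_lit 0x120000000000000000000000000000000000000000000000000000000000000000000000000000, 1⟩,
  ⟨20, 2, [0], nat_lit 0x14000000000000000000000000000000000000000000000000000000000000000000000000000000000000, 1⟩,
  ⟨22, 2, [0], nat_lit 0x1600000000000000000000000000000000000000000000000000000000000000000000000000000000000000000000, 1⟩,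
  ⟨24, 2, [0], nat_lit 0x180000000000000000000000000000000000000000000000000000000000000000000000000000000000000000000000000000, 1⟩,
  ⟨26, 2, [0], nat_lit 0x1a000000000000000000000000000000000000000000000000000000000000000000000000000000000000000000000000000000000000, 1⟩]
def p2T : List (ℕ × ℕ) := [(38, nat_lit 0x1), (23, nat_lit 0x40502030100), (24, nat_lit 0x30205040100), (36, nat_lit 0x607030405020100), (0, nat_lit 0x8090706030405020100), (1, nat_lit 0xa0b09080706050403020100), (3, nat_lit 0xc0d0b0a09080706030405020100), (4, nat_lit 0xe0f0d0c0b0a09080706050403020100), (20, nat_lit 0x10110f0e0d0c0b0a09080706050403020100), (6, nat_lit 0x121311100f0e0d0c0b0a09080706050403020100), (8, nat_lit 0x1415131211100f0e0d0c0b0a09080706030405020100), (11, nat_lit 0x16171514131211100f0e0d0c0b0a09080706050403020100), (14, nat_lit 0x181917161514131211100f0e0d0c0b0a09080706050403020100), (18, nat_lit 0x1a1b191817161514131211100f0e0d0c0b0a09080706050403020100)]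
def p2p1 : List (ℕ × ℕ) := [(1, 0), (2, 0), (2, 1), (0, 2), (0, 3), (2, 6), (8, 1), (6, 1), (5, 6), (0, 6), (5, 6), (4, 6), (0, 9), (7, 2), (1, 7), (6, 7), (3, 7), (7, 0), (4, 4), (0, 0), (0, 6), (6, 6), (0, 7), (7, 9), (0, 10), (0, 8), (0, 0), (0, 0), (0, 2), (15, 11), (0, 0), (0, 1), (21, 21), (0, 0), (0, 23), (11, 19), (15, 13), (16, 8), (17, 17), (0, 3), (0, 4), (6, 3), (0, 7), (0, 14), (0, 12), (22, 9), (0, 10), (0, 24), (25, 13), (0, 11), (0, 13), (12, 14), (0, 15), (16, 18), (0, 17), (17, 23), (35, 24), (0, 22), (35, 29)]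
theorem p2b1 : (HNM.ok p2X && Nat.beq (slp HNM.mm HNM.PM.one p2p1 ([p2o0, p2o1, p2o2] ++ HNM.ms) (HNM.PM.chkS HNM.mm p2X p2L p2T)) 0 &&
  Nat.beq (p2L.map CL.m).prod 16384) = true := by decide +kernel
end CfH6.HNS
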