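import Cfsg.Agent.OD.Pre
import Cfsg.Agent.H6.HNS.p2_0
import Cfsg.Agent.H6.HNS.p2_1
set_option autoImplicit false
set_option maxRecDepth 100000
set_option Elab.async false
set_option linter.all false
namespace CfH6.HNS
open CfH6
theorem p2h0 : ∀ c ∈ [p2o0, p2o1, p2o2], InR HNM.ok HNM.sem HNM.φ.range c := by
  have := HNM.D.slp_outs (forall_app (forall_nil) cols) _ [(26, p2o0), (12, p2o1), (0, p2o2)] p2b0
  simp only [List.map_cons, List.map_nil] at this
  exact this
theorem ip2o0 : InR HNM.ok HNM.sem HNM.φ.range p2o0 := p2h0 _ (List.Mem.head _)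
theorem ip2o1 : InR HNM.ok HNM.sem HNM.φ.range p2o1 := p2h0 _ (List.Mem.tail _ (List.Mem.head _))
theorem ip2o2 : InR HNM.ok HNM.sem HNM.φ.range p2o2 := p2h0 _ (List.Mem.tail _ (List.Mem.tail _ (List.Mem.head _)))
theorem p2 : 16384 ∣ Nat.card HNM.φ.range := MP.slp_dvd HNM.D (forall_app (forall_cons ip2o0 (forall_cons ip2o1 (forall_cons ip2o2 (forall_nil)))) cols) _ _ _ _ _ p2b1
end CfH6.HNS
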