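import Cfsg.Agent.OD.Pre
import Cfsg.Agent.H6.HNS.p3D
set_option autoImplicit false
set_option maxRecDepth 100000
set_option Elab.async false
set_option linter.all false
namespace CfH6.HNS
open CfH6
def p3p0 : List (ℕ × ℕ) := [(2, 5), (7, 4), (4, 4), (8, 5), (4, 6), (10, 2), (10, 6), (11, 6), (13, 7), (6, 0), (4, 6), (10, 6), (4, 6), (6, 0), (6, 13), (2, 7), (0, 7), (7, 2), (7, 4), (0, 2), (0, 0), (0, 1), (8, 9), (0, 9), (0, 10), (28, 28), (0, 32), (25, 31), (1, 0), (30, 33), (1, 0), (34, 37), (0, 5), (2, 0), (5, 3), (4, 0), (5, 0), (3, 0), (7, 0), (10, 0), (11, 0), (21, 27), (0, 23), (0, 24), (0, 30), (0, 26), (0, 33), (0, 6), (46, 20), (47, 55), (0, 24), (2, 0), (21, 18), (19, 0), (2, 0), (21, 0), (25, 0), (23, 0), (27, 0), (34, 46), (0, 45), (0, 42), (0, 47), (0, 4), (12, 33), (36, 0), (17, 0), (15, 0), (16, 0), (17, 0), (36, 0), (54, 57), (0, 56), (0, 61), (0, 60), (0, 63), (0, 61), (0, 58), (0,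 7), (51, 50), (51, 46), (32, 0), (51, 0), (52, 0), (50, 0), (5, 0), (37, 0), (74, 68), (0, 74), (0, 71), (0, 78), (0, 76), (0, 73), (0, 79), (0, 7)]
theorem p3b0 : Nat.beq (slp HNM.mm HNM.PM.one p3p0 ([] ++ HNM.ms) (outs HNM.PM.one [(73, p3o0), (47, p3o1), (31, p3o2), (16, p3o3), (0, p3o4)])) 0 = true := by decide +kernel
end CfH6.HNS
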