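import Cfsg.Agent.OD.Pre
import Cfsg.Agent.H6.HNS.p3D
set_option autoImplicit false
set_option maxRecDepth 100000
set_option Elab.async false
set_option linter.all false
namespace CfH6.HNS
open CfH6
def p3L : List CL := [⟨0, 3, [2], nat_lit 0x100000000, 1⟩,
  ⟨3, 3, [1], nat_lit 0x400030000000000000000, 1⟩,
  ⟨6, 3, [0], nat_lit 0x700060000000000000000000000000000, 1⟩,
  ⟨9, 3, [0], nat_lit 0xa00090000000000000000000000000000000000000000, 1⟩,
  ⟨12, 3, [0], nat_lit 0xd000c0000000000000000000000000000000000000000000000000000, 1⟩,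
  ⟨15, 3, [1], nat_lit 0x10000f0000000000000000000000000000000000000000000000000000000000000000, 1⟩]
def p3T : List (ℕ × ℕ) := [(9, nat_lit 0x201), (0, nat_lit 0x30504020100), (5, nat_lit 0x60807050403020100), (1, nat_lit 0x90b0a080706050403020100), (3, nat_lit 0xc0e0d0b0a09080706050403020100), (10, nat_lit 0xf11100e0d0c0b0a09080706050403020100)]
def p3p1 : List (ℕ × ℕ) := [(3, 0), (0, 0), (2, 1), (4, 7), (6, 7), (1, 8), (10, 5), (6, 7), (1, 7), (7, 5), (7, 2), (7, 3), (5, 7), (2, 7), (2, 7), (3, 7), (7, 1), (3, 6), (0, 2), (0, 4), (0, 0), (0, 0), (9, 7), (7, 6), (0, 7), (0, 15), (11, 11), (4, 0), (0, 2), (3, 2), (0, 7), (8, 5)]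
theorem p3b1 : (HNM.ok p3X && Nat.beq (slp HNM.mm HNM.PM.one p3p1 ([p3o0, p3o1, p3o2, p3o3, p3o4] ++ HNM.ms) (HNM.PM.chkS HNM.mm p3X p3L p3T)) 0 &&
  Nat.beq (p3L.map CL.m).prod 729) = true := by decide +kernel
end CfH6.HNS
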