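import Cfsg.Agent.OD.Pre
import Cfsg.Agent.H6.HNS.p3_0
import Cfsg.Agent.H6.HNS.p3_1
set_option autoImplicit false
set_option maxRecDepth 100000
set_option Elab.async false
set_option linter.all false
namespace CfH6.HNS
open CfH6
theorem p3h0 : ∀ c ∈ [p3o0, p3o1, p3o2, p3o3, p3o4], InR HNM.ok HNM.sem HNM.φ.range c := by
  have := HNM.D.slp_outs (forall_app (forall_nil) cols) _ [(73, p3o0), (47, p3o1), (31, p3o2), (16, p3o3), (0, p3o4)] p3b0
  simp only [List.map_cons, List.map_nil] at this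
  exact this
theorem ip3o0 : InR HNM.ok HNM.sem HNM.φ.range p3o0 := p3h0 _ (List.Mem.head _)
theorem ip3o1 : InR HNM.ok HNM.sem HNM.φ.range p3o1 := p3h0 _ (List.Mem.tail _ (List.Mem.head _))
theorem ip3o2 : InR HNM.ok HNM.sem HNM.φ.range p3o2 := p3h0 _ (List.Mem.tail _ (List.Mem.tail _ (List.Mem.head _)))
theorem ip3o3 : InR HNM.ok HNM.sem HNM.φ.range p3o3 := p3h0 _ (List.Mem.tail _ (List.Mem.tail _ (List.Mem.tail _ (List.Mem.head _))))
theorem ip3o4 : InR HNM.ok HNM.sem HNM.φ.range p3o4 := p3h0 _ (List.Mem.tail _ (List.Mem.tail _ (List.Mem.tail _ (List.Mem.tail _ (List.Mem.head _)))))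
theorem p3 : 729 ∣ Nat.card HNM.φ.range := MP.slp_dvd HNM.D (forall_app (forall_cons ip3o0 (forall_cons ip3o1 (forall_cons ip3o2 (forall_cons ip3o3 (forall_cons ip3o4 (forall_nil)))))) cols) _ _ _ _ _ p3b1
end CfH6.HNS
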