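import Cfsg.Agent.OD.Pre
import Cfsg.Agent.H6.HNS.p5D
set_option autoImplicit false
set_option maxRecDepth 100000
set_option Elab.async false
set_option linter.all false
namespace CfH6.HNS
open CfH6
def p5p0 : List (ℕ × ℕ) := [(2, 5), (3, 1), (3, 5), (9, 6), (6, 6), (8, 8), (11, 6), (0, 7), (10, 1), (13, 1), (0, 15), (1, 6), (11, 4), (11, 6), (12, 0), (2, 7), (7, 6), (7, 4), (0, 7), (7, 6), (3, 7), (2, 4), (0, 0), (0, 0), (0, 2), (6, 10), (27, 32), (0, 24), (29, 1), (0, 25), (1, 0), (3, 28), (3, 36), (39, 0), (4, 1), (1, 0), (9, 39), (4, 0), (8, 0), (7, 3), (5, 0), (2, 0), (6, 0), (11, 0), (13, 0), (17, 0), (29, 29), (0, 26), (0, 34), (0, 32), (0, 30), (0, 36), (0, 35), (0, 7), (16, 18), (17, 0), (28, 0), (19, 0), (19, 0), (31, 0), (21, 0), (47, 44), (0, 45), (0, 46), (0, 50), (0, 51), (0, 52), (0, 50), (0, 7), (31, 30), (34, 0), (33, 0), (34, 0), (37, 0), (36, 0), (40, 0), (50, 59), (0, 62), (0,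 58), (0, 64), (0, 62), (0, 60), (0, 6), (77, 50), (54, 0), (0, 50), (55, 0), (59, 0), (60, 0), (51, 0), (54, 0), (52, 0), (73, 74), (0, 79), (0, 78), (0, 81), (0, 80), (0, 78), (0, 77), (0, 7)]
theorem p5b0 : Nat.beq (slp HNM.mm HNM.PM.one p5p0 ([] ++ HNM.ms) (outs HNM.PM.one [(75, p5o0), (46, p5o1), (31, p5o2), (17, p5o3), (0, p5o4)])) 0 = true := by decide +kernel
end CfH6.HNS
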