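import Cfsg.Agent.OD.Pre
import Cfsg.Agent.H6.HNS.p5D
set_option autoImplicit false
set_option maxRecDepth 100000
set_option Elab.async false
set_option linter.all false
namespace CfH6.HNS
open CfH6
def p5L : List CL := [⟨0, 25, [0, 2], nat_lit 0x14001300120011000f000e000d000c000a0006000903050007000501080004010404020003000201030101000100000000, 1⟩,
  ⟨25, 5, [6], nat_lit 0x1c001b001a001900000000000000000000000000000000000000000000000000000000000000000000000000000000000000000000000000000000, 1⟩,
  ⟨30, 5, [8], nat_lit 0x210020001f001e0000000000000000000000000000000000000000000000000000000000000000000000000000000000000000000000000000000000000000000000000000, 1⟩,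
  ⟨35, 5, [35], nat_lit 0x26002500240023000000000000000000000000000000000000000000000000000000000000000000000000000000000000000000000000000000000000000000000000000000000000000000000000, 1⟩,
  ⟨40, 5, [7], nat_lit 0x2b002a0029002800000000000000000000000000000000000000000000000000000000000000000000000000000000000000000000000000000000000000000000000000000000000000000000000000000000000000000000, 1⟩]
def p5T : List (ℕ × ℕ) := [(17, nat_lit 0x3040a08181716150d1413121100100e070c0f0b0906050201), (10, nat_lit 0x191d1c1b1a1817161514131211020d050e0f0b01070a10090c0804060300), (15, nat_lit 0x1e2221201f1d1c1b1a191817161514131211100f0e0d0c0b0a09080706050403020100), (0, nat_lit 0x23272625242221201f1e1d1c1b1a19181716151413121102050f0c0e0b0a070810090d0403060100), (4, nat_lit 0x282c2b2a2927262524232221201f1e1d1c1b1a1918171615120b1314090c0d0f051103020106100e0a08070400)]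
def p5p1 : List (ℕ × ℕ) := [(0, 2), (2, 5), (2, 0), (6, 4), (8, 6), (8, 3), (3, 10), (7, 2), (6, 7), (7, 6), (6, 4), (6, 5), (0, 6), (0, 6), (6, 4), (6, 4), (0, 5), (0, 2), (0, 5), (0, 0), (5, 5), (0, 0), (9, 9), (7, 9), (0, 11), (0, 15), (0, 0), (7, 4), (8, 1), (0, 0), (0, 1), (0, 3), (0, 4), (13, 5), (0, 5), (0, 7), (0, 7)]
theorem p5b1 : (HNM.ok p5X && Nat.beq (slp HNM.mm HNM.PM.one p5p1 ([p5o0, p5o1, p5o2, p5o3, p5o4] ++ HNM.ms) (HNM.PM.chkS HNM.mm p5X p5L p5T)) 0 &&
  Nat.beq (p5L.map CL.m).prod 15625) = true := by decide +kernel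
end CfH6.HNS
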