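import Cfsg.Agent.OD.Pre
import Cfsg.Agent.H6.HNS.p5_0
import Cfsg.Agent.H6.HNS.p5_1
set_option autoImplicit false
set_option maxRecDepth 100000
set_option Elab.async false
set_option linter.all false
namespace CfH6.HNS
open CfH6
theorem p5h0 : ∀ c ∈ [p5o0, p5o1, p5o2, p5o3, p5o4], InR HNM.ok HNM.sem HNM.φ.range c := by
  have := HNM.D.slp_outs (forall_app (forall_nil) cols) _ [(75, p5o0), (46, p5o1), (31, p5o2), (17, p5o3), (0, p5o4)] p5b0
  simp only [List.map_cons, List.map_nil] at this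
  exact this
theorem ip5o0 : InR HNM.ok HNM.sem HNM.φ.range p5o0 := p5h0 _ (List.Mem.head _)
theorem ip5o1 : InR HNM.ok HNM.sem HNM.φ.range p5o1 := p5h0 _ (List.Mem.tail _ (List.Mem.head _))
theorem ip5o2 : InR HNM.ok HNM.sem HNM.φ.range p5o2 := p5h0 _ (List.Mem.tail _ (List.Mem.tail _ (List.Mem.head _)))
theorem ip5o3 : InR HNM.ok HNM.sem HNM.φ.range p5o3 := p5h0 _ (List.Mem.tail _ (List.Mem.tail _ (List.Mem.tail _ (List.Mem.head _))))
theorem ip5o4 : InR HNM.ok HNM.sem HNM.φ.range p5o4 := p5h0 _ (List.Mem.tail _ (List.Mem.tail _ (List.Mem.tail _ (List.Mem.tail _ (List.Mem.head _)))))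
theorem p5 : 15625 ∣ Nat.card HNM.φ.range := MP.slp_dvd HNM.D (forall_app (forall_cons ip5o0 (forall_cons ip5o1 (forall_cons ip5o2 (forall_cons ip5o3 (forall_cons ip5o4 (forall_nil)))))) cols) _ _ _ _ _ p5b1
end CfH6.HNS
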