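import Cfsg.Agent.OD.Pre
import Cfsg.Agent.H6.HNS.p7D
set_option autoImplicit false
set_option maxRecDepth 100000
set_option Elab.async false
set_option linter.all false
namespace CfH6.HNS
open CfH6
def p7L : List CL := [⟨0, 7, [4, 0], nat_lit 0x5000400030002000100000000, 1⟩]
def p7T : List (ℕ × ℕ) := [(0, nat_lit 0x60504030201)]
def p7p0 : List (ℕ × ℕ) := [(2, 0), (1, 5), (0, 2), (3, 2), (3, 6), (0, 10), (0, 4), (4, 1), (1, 4), (3, 0), (0, 0), (0, 3), (0, 0), (0, 0), (0, 2)]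
theorem p7b0 : (HNM.ok p7X && Nat.beq (slp HNM.mm HNM.PM.one p7p0 ([] ++ HNM.ms) (HNM.PM.chkS HNM.mm p7X p7L p7T)) 0 &&
  Nat.beq (p7L.map CL.m).prod 7) = true := by decide +kernel
end CfH6.HNS
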